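import Cfsg.Agent.Lib.SzIso.Basic
import Cfsg.Agent.Lib.SuzukiX.Central

/-!
Lower bound for the degrees of the complex representations of the Suzuki groups: restrict to the
centre `Z` of the Sylow 2-subgroup; the torus permutes the `q - 1` nontrivial characters of `Z`
transitively, and each eigenspace for such a character carries a representation of a Heisenberg type
group, with degree at least `2 ^ m`.
-/

set_option autoImplicit false
set_option linter.unusedSectionVars false
set_option linter.style.haveILetI false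
set_option linter.unusedVariables false

namespace Cfsg.Agent.Lib.SzDeg.Basic

open Cfsg Cfsg.Agent.Lib.Suzuki.Core Cfsg.Agent.Lib.Suzuki.Elements Cfsg.Agent.Lib.Suzuki.Stab
open Cfsg.Agent.Lib.Suzuki.Group Cfsg.Agent.Lib.Suzuki.Simple
open Module
open scoped Classical

variable {F : Type*} [Field F] [Fintype F] {m : ℕ}

section Tr

variable [CharP F 2]

/-- The trace of the field with `2 ^ (2 m + 1)` elements. -/
def T (m : ℕ) (x : F) : F := ∑ i ∈ Finset.range (2 * m + 1), x ^ (2 ^ i)

lemma frob_add (k : ℕ) (x y : F) : (x + y) ^ (2 ^ k) = x ^ (2 ^ k) + y ^ (2 ^ k) := by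
  haveI : ExpChar F 2 := ExpChar.prime Nat.prime_two
  exact add_pow_expChar_pow x y 2 k

lemma T_add (x y : F) : T m (x + y) = T m x + T m y := by
  simp only [T, frob_add, Finset.sum_add_distrib]

lemma T_zero : T m (0 : F) = 0 := by
  simp [T]

lemma T_sq_arg (hF : Fintype.card F = 2 ^ (2 * m + 1)) (x : F) : T m (x ^ 2) = T m x := by
  have h1 : ∀ i, (x ^ 2) ^ (2 ^ i) = x ^ (2 ^ (i + 1)) := by
    intro i
    rw [← pow_mul, pow_succ', ]
  simp only [T, h1]
  rw [Finset.sum_range_succ (fun i => x ^ (2 ^ (i + 1))), Finset.sum_range_succ' (fun i => x ^ (2 ^ i))]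
  have h2 : x ^ (2 ^ (2 * m + 1)) = x := by
    rw [← hF]; exact FiniteField.pow_card x
  rw [h2]
  simp [add_comm]

lemma T_sq (x : F) : (T m x) ^ 2 = T m (x ^ 2) := by
  simp only [T]
  induction (2 * m + 1) with
  | zero => simp
  | succ n ih =>
    rw [Finset.sum_range_succ, Finset.sum_range_succ, CharTwo.add_sq, ih]
    congr 1
    rw [← pow_mul, ← pow_mul, mul_comm]

lemma T_eq (hF : Fintype.card F = 2 ^ (2 * m + 1)) (x : F) : T m x = 0 ∨ T m x = 1 := by
  have h : T m x ^ 2 = T m x := by rw [T_sq, T_sq_arg hF]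
  have h2 : T m x * (T m x - 1) = 0 := by
    rw [mul_sub, mul_one, ← sq, h, sub_self]
  rcases mul_eq_zero.mp h2 with h3 | h3
  · exact Or.inl h3
  · exact Or.inr (sub_eq_zero.mp h3)

lemma T_one : T m (1 : F) = 1 := by
  simp only [T, one_pow, Finset.sum_const, Finset.card_range, nsmul_eq_mul, mul_one]
  have : ((2 * m + 1 : ℕ) : F) = 2 * (m : F) + 1 := by push_cast; ring
  rw [this, CharTwo.two_eq_zero]
  simp

lemma T_pow_two (hF : Fintype.card F = 2 ^ (2 * m + 1)) (k : ℕ) (x : F) : T m (x ^ (2 ^ k)) = T m x := by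
  induction k with
  | zero => simp
  | succ k ih =>
    rw [pow_succ, pow_mul, T_sq_arg hF, ih]

lemma T_th (hF : Fintype.card F = 2 ^ (2 * m + 1)) (x : F) : T m (th m x) = T m x :=
  T_pow_two hF (m + 1) x

/-- The additive character of `F`. -/
noncomputable def eps (m : ℕ) (x : F) : ℂ := if T m x = 0 then 1 else -1

lemma eps_of_zero {x : F} (h : T m x = 0) : eps m x = 1 := by simp [eps, h]

lemma eps_of_one {x : F} (h : T m x = 1) : eps m x = -1 := by simp [eps, h]

lemma eps_zero : eps m (0 : F) = 1 := eps_of_zero T_zero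

lemma eps_add (hF : Fintype.card F = 2 ^ (2 * m + 1)) (x y : F) : eps m (x + y) = eps m x * eps m y := by
  rcases T_eq hF x with h1 | h1 <;> rcases T_eq hF y with h2 | h2
  · rw [eps_of_zero h1, eps_of_zero h2, eps_of_zero (by rw [T_add, h1, h2, add_zero])]; simp
  · rw [eps_of_zero h1, eps_of_one h2, eps_of_one (by rw [T_add, h1, h2, zero_add])]; simp
  · rw [eps_of_one h1, eps_of_zero h2, eps_of_one (by rw [T_add, h1, h2, add_zero])]; simp
  · rw [eps_of_one h1, eps_of_one h2, eps_of_zero (by rw [T_add, h1, h2]; exact CharTwo.add_self_eq_zero 1)]; simp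

lemma eps_mul_self (hF : Fintype.card F = 2 ^ (2 * m + 1)) (x : F) : eps m x * eps m x = 1 := by
  rw [← eps_add hF, CharTwo.add_self_eq_zero, eps_zero]

lemma eps_ne_zero (x : F) : eps m x ≠ 0 := by
  unfold eps
  split_ifs <;> simp

lemma sum_eps (hF : Fintype.card F = 2 ^ (2 * m + 1)) {c : F} (hc : c ≠ 0) : ∑ x : F, eps m (c * x) = 0 := by
  have h1 : ∑ x : F, eps m (c * (x + c⁻¹)) = ∑ x : F, eps m (c * x) :=
    Equiv.sum_comp (Equiv.addRight c⁻¹) (fun x => eps m (c * x))
  have h2 : ∀ x : F, eps m (c * (x + c⁻¹)) = - eps m (c * x) := by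
    intro x
    rw [mul_add, mul_inv_cancel₀ hc, eps_add hF, eps_of_one T_one, mul_neg, mul_one]
  simp only [h2, Finset.sum_neg_distrib] at h1
  have h3 : (2 : ℂ) * ∑ x : F, eps m (c * x) = 0 := by
    linear_combination -h1
  simpa using h3

end Tr

section Heis

variable [CharP F 2] {W : Type*} [AddCommGroup W] [Module ℂ W] [FiniteDimensional ℂ W]

lemma card_ker_T (hF : Fintype.card F = 2 ^ (2 * m + 1)) :
    Fintype.card {a : F // T m a = 0} = 2 ^ (2 * m) := by
  classical
  have h1 := Finset.card_filter_add_card_filter_not (s := (Finset.univ : Finset F)) (fun a => T m a = 0)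
  have h2 : (Finset.univ.filter (fun a : F => T m a = 0)).card =
      (Finset.univ.filter (fun a : F => ¬ T m a = 0)).card := by
    apply Finset.card_nbij' (fun a => a + 1) (fun a => a + 1)
    · intro a ha
      simp only [Finset.coe_filter, Finset.mem_univ, true_and, Set.mem_ofPred_eq] at ha ⊢
      rw [T_add, ha, T_one]
      simp
    · intro a ha
      simp only [Finset.coe_filter, Finset.mem_univ, true_and, Set.mem_ofPred_eq] at ha ⊢
      rcases T_eq hF a with h | h
      · exact absurd h ha
      · rw [T_add, h, T_one]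
        exact CharTwo.add_self_eq_zero 1
    · intro a _
      simp only
      rw [add_assoc, CharTwo.add_self_eq_zero, add_zero]
    · intro a _
      simp only
      rw [add_assoc, CharTwo.add_self_eq_zero, add_zero]
  rw [Fintype.card_subtype]
  rw [Finset.card_univ, hF, ← h2] at h1
  have : (2 : ℕ) ^ (2 * m + 1) = 2 * 2 ^ (2 * m) := by ring
  omega

/-- The Heisenberg bound. -/
theorem heis [Nontrivial W] (hc : Ctx F m) (P : F → F → Module.End ℂ W)
    (hmul : ∀ a b a' b', P a b * P a' b' = P (a + a') (b + b' + th m a * a'))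
    (hz : ∀ c, P 0 c = eps m c • 1) :
    2 ^ (2 * m) ≤ finrank ℂ W * finrank ℂ W := by
  classical
  have hF := hc.hcard
  set p : F → Module.End ℂ W := fun a => P a 0 with hp
  have h0 : p 0 = 1 := by
    have := hz 0
    rw [eps_zero, one_smul] at this
    exact this
  have h1 : ∀ a a', p a * p a' = eps m (th m a * a') • p (a + a') := by
    intro a a'
    have e1 := hmul a 0 a' 0
    have e2 := hmul (a + a') 0 0 (th m a * a')
    rw [hz, add_zero, zero_add, mul_zero, add_zero, mul_smul_comm, mul_one] at e2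
    simp only [hp]
    rw [e1, zero_add, zero_add, e2]
  have hsq : ∀ a, p a * p a = eps m (th m a * a) • 1 := by
    intro a
    rw [h1, CharTwo.add_self_eq_zero, h0]
  have htrace0 : ∀ a, a ≠ 0 → a ≠ 1 → LinearMap.trace ℂ W (p a) = 0 := by
    intro a ha0 ha1
    -- the radical
    set t := th m a with ht
    set s := t ^ (2 ^ (2 * m)) with hs
    have hs2 : s ^ 2 = t := by
      rw [hs, ← pow_mul, ← pow_succ]
      rw [← hF]
      exact FiniteField.pow_card t
    have hts : t + s ≠ 0 := by
      intro h5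
      have h6 : s * (s + 1) = 0 := by
        have : s * (s + 1) = s ^ 2 + s := by ring
        rw [this, hs2, h5]
      rcases mul_eq_zero.mp h6 with h7 | h7
      · rw [h7] at hs2
        have : t = 0 := by rw [← hs2]; simp
        exact ha0 (th_eq_zero.mp this)
      · have h8 : s = 1 := by
          have := CharTwo.add_eq_zero.mp h7
          exact this
        rw [h8] at hs2
        have h9 : t = 1 := by rw [← hs2]; simp
        have h10 : a ^ 2 = 1 := by
          rw [← hc.hth a, ← ht, h9, th_one]
        exact ha1 (sq_eq_one_iff'.mp h10)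
    set a' := (t + s)⁻¹ with ha'
    have hval : T m (th m a * a' + th m a' * a) = 1 := by
      have h5 : T m (th m a' * a) = T m (s * a') := by
        rw [← T_th hF (th m a' * a), th_mul, hc.hth, ← ht, ← hs2, ← mul_pow, mul_comm a' s, T_sq_arg hF]
      rw [T_add, h5, ← T_add, ← ht, ← add_mul, ha', mul_inv_cancel₀ hts, T_one]
    have heps : eps m (th m a * a') * eps m (th m a' * a) = -1 := by
      rw [← eps_add hF, eps_of_one hval]
    have hcomm : p a' * p a = - (p a * p a') := by
      rw [h1, h1, add_comm a' a]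
      have h6 : eps m (th m a' * a) = - eps m (th m a * a') := by
        have h7 := eps_mul_self hF (th m a * a')
        linear_combination eps m (th m a * a') * heps - (eps m (th m a' * a)) * h7
      rw [h6, neg_smul]
    have h7 : LinearMap.trace ℂ W (p a' * (p a * p a')) = LinearMap.trace ℂ W ((p a * p a') * p a') :=
      LinearMap.trace_mul_comm ℂ _ _
    have h8 : p a' * (p a * p a') = - ((p a) * (p a' * p a')) := by
      rw [← mul_assoc, hcomm, neg_mul, mul_assoc]
    rw [h8, mul_assoc, hsq, mul_smul_comm, mul_one, map_neg, map_smul, smul_eq_mul] at h7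
    have h9 := eps_ne_zero (m := m) (th m a' * a')
    have h10 : (2 : ℂ) * (eps m (th m a' * a') * LinearMap.trace ℂ W (p a)) = 0 := by
      linear_combination -h7
    simpa [h9] using h10
  -- linear independence
  have hli : LinearIndependent ℂ (fun a : {a : F // T m a = 0} => p a.1) := by
    rw [Fintype.linearIndependent_iff]
    intro g hg a0
    have h5 : ∑ a : {a : F // T m a = 0}, g a * eps m (th m a0.1 * a.1) * LinearMap.trace ℂ W (p (a0.1 + a.1)) = 0 := by
      have h6 := congrArg (fun X => LinearMap.trace ℂ W (p a0.1 * X)) hg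
      simp only [Finset.mul_sum, map_sum, mul_zero, map_zero, mul_smul_comm, map_smul, smul_eq_mul, h1] at h6
      rw [← h6]
      refine Finset.sum_congr rfl fun a _ => ?_
      ring
    rw [Finset.sum_eq_single a0] at h5
    · rw [CharTwo.add_self_eq_zero, h0, LinearMap.trace_one] at h5
      have h6 : (finrank ℂ W : ℂ) ≠ 0 := by
        exact_mod_cast (finrank_pos (R := ℂ) (M := W)).ne'
      have h7 := eps_ne_zero (m := m) (th m a0.1 * a0.1)
      simpa [h6, h7] using h5
    · intro a _ hne
      have h6 : a0.1 + a.1 ≠ 0 := by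
        intro h
        apply hne
        apply Subtype.ext
        exact (CharTwo.add_eq_zero.mp h).symm
      have h7 : a0.1 + a.1 ≠ 1 := by
        intro h
        have := congrArg (T m) h
        rw [T_add, a0.2, a.2, T_one, add_zero] at this
        exact zero_ne_one this
      rw [htrace0 _ h6 h7, mul_zero]
    · simp
  have hcard := hli.fintype_card_le_finrank
  rw [card_ker_T hF, finrank_linearMap] at hcard
  exact hcard

end Heis

section Main

variable [CharP F 2] {V : Type*} [AddCommGroup V] [Module ℂ V] [FiniteDimensional ℂ V]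

variable (hc : Ctx F m) (ρ : Representation ℂ (Sz F m) V)

/-- The central elements. -/
local notation "zz" => fun b : F => ρ (uS hc 0 b)

lemma z_mul (b c : F) : ρ (uS hc 0 b) * ρ (uS hc 0 c) = ρ (uS hc 0 (b + c)) := by
  rw [← map_mul, uS_mul, add_zero, th_zero, zero_mul, add_zero]

lemma z_zero : ρ (uS hc 0 (0 : F)) = 1 := by
  rw [uS_zero, map_one]

/-- The projection to an eigenspace for the central elements. -/
noncomputable def ee (l : F) : Module.End ℂ V :=
  ((Fintype.card F : ℂ)⁻¹) • ∑ b : F, eps m (l * b) • ρ (uS hc 0 b)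

lemma card_ne : (Fintype.card F : ℂ) ≠ 0 := by
  exact_mod_cast Fintype.card_ne_zero

lemma z_mul_ee (c l : F) : ρ (uS hc 0 c) * ee hc ρ l = eps m (l * c) • ee hc ρ l := by
  have hF := hc.hcard
  simp only [ee, mul_smul_comm, Finset.mul_sum, z_mul]
  rw [smul_comm]
  congr 1
  rw [Finset.smul_sum]
  have := Equiv.sum_comp (Equiv.addRight c) (fun b : F => eps m (l * c) • eps m (l * b) • ρ (uS hc 0 b))
  rw [← this]
  refine Finset.sum_congr rfl fun b _ => ?_
  simp only [Equiv.coe_addRight]
  rw [mul_add, eps_add hF, smul_smul]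
  have h := eps_mul_self hF (l * c)
  have h2 : eps m (l * c) * (eps m (l * b) * eps m (l * c)) = eps m (l * b) := by
    linear_combination (eps m (l * b)) * h
  rw [h2, add_comm]

lemma ee_idem (l : F) : IsIdempotentElem (ee hc ρ l) := by
  have hF := hc.hcard
  unfold IsIdempotentElem
  have h : ∀ X : Module.End ℂ V, ee hc ρ l * X = (Fintype.card F : ℂ)⁻¹ • ∑ b : F, eps m (l * b) • (ρ (uS hc 0 b) * X) := by
    intro X
    simp only [ee, smul_mul_assoc, Finset.sum_mul]
  rw [h]
  simp only [z_mul_ee, smul_smul, eps_mul_self hF, one_smul, Finset.sum_const, Finset.card_univ]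
  rw [← Nat.cast_smul_eq_nsmul ℂ, smul_smul, inv_mul_cancel₀ (card_ne (F := F)), one_smul]

lemma sum_ee : ∑ l : F, ee hc ρ l = 1 := by
  have hF := hc.hcard
  simp only [ee, ← Finset.smul_sum]
  rw [Finset.sum_comm]
  simp only [← Finset.sum_smul]
  rw [Finset.sum_eq_single (0 : F)]
  · rw [z_zero]
    simp only [mul_zero, eps_zero, Finset.sum_const, Finset.card_univ, nsmul_eq_mul, mul_one]
    rw [smul_smul, inv_mul_cancel₀ (card_ne (F := F)), one_smul]
  · intro b _ hb
    have : ∑ x : F, eps m (x * b) = 0 := by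
      have := sum_eps (m := m) hF hb
      simpa [mul_comm] using this
    rw [this, zero_smul]
  · simp

lemma trace_ee (l : F) : LinearMap.trace ℂ V (ee hc ρ l) = finrank ℂ (LinearMap.range (ee hc ρ l)) :=
  (LinearMap.IsIdempotentElem.isProj_range _ (ee_idem hc ρ l)).trace

lemma finrank_eq_sum : finrank ℂ V = ∑ l : F, finrank ℂ (LinearMap.range (ee hc ρ l)) := by
  have h := congrArg (LinearMap.trace ℂ V) (sum_ee hc ρ)
  rw [map_sum, LinearMap.trace_one] at h
  simp only [trace_ee] at h
  exact_mod_cast h.symm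

/-- conjugation by the torus. -/
lemma conj_ee (t : Fˣ) (l : F) :
    ρ (hS hc t) * ee hc ρ (l * ((t : F) * th m (t : F))) * ρ (hS hc t)⁻¹ = ee hc ρ l := by
  set c : F := (t : F) * th m (t : F) with hcdef
  have hc0 : c ≠ 0 := mul_ne_zero t.ne_zero (th_ne_zero m t.ne_zero)
  have h1 : ∀ b : F, ρ (hS hc t) * ρ (uS hc 0 b) * ρ (hS hc t)⁻¹ = ρ (uS hc 0 (c * b)) := by
    intro b
    rw [← map_mul, ← map_mul, hS_conj_uS, mul_zero]
  simp only [ee, mul_smul_comm, smul_mul_assoc, Finset.mul_sum, Finset.sum_mul, h1]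
  congr 1
  have := Equiv.sum_comp (Equiv.mulLeft₀ c hc0) (fun b : F => eps m (l * b) • ρ (uS hc 0 b))
  rw [← this]
  refine Finset.sum_congr rfl fun b _ => ?_
  have e : (Equiv.mulLeft₀ c hc0) b = c * b := rfl
  rw [e, mul_assoc]

lemma trace_ee_eq (t : Fˣ) (l : F) :
    LinearMap.trace ℂ V (ee hc ρ (l * ((t : F) * th m (t : F)))) = LinearMap.trace ℂ V (ee hc ρ l) := by
  conv_rhs => rw [← conj_ee hc ρ t l]
  have h : ρ (hS hc t)⁻¹ * ρ (hS hc t) = 1 := by
    rw [← map_mul, inv_mul_cancel, map_one]
  rw [LinearMap.trace_mul_comm]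
  congr 1
  rw [← mul_assoc (ρ (hS hc t)⁻¹), h, one_mul]

lemma finrank_ee_eq {l : F} (hl : l ≠ 0) :
    finrank ℂ (LinearMap.range (ee hc ρ l)) = finrank ℂ (LinearMap.range (ee hc ρ 1)) := by
  obtain ⟨t, ht⟩ := Cfsg.Agent.Lib.SuzukiX.Central.exists_unit hc hl
  have h := trace_ee_eq hc ρ t 1
  rw [ht, one_mul, trace_ee, trace_ee] at h
  exact_mod_cast h

include hc in
theorem main (hρ : ∃ g, ρ g ≠ 1) :
    2 ^ m * (2 ^ (2 * m + 1) - 1) ≤ finrank ℂ V := by
  classical
  have hF := hc.hcard
  haveI := isSimpleGroup_Sz hc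
  set d := finrank ℂ (LinearMap.range (ee hc ρ 1)) with hd
  -- the sum
  have hsum : finrank ℂ V = finrank ℂ (LinearMap.range (ee hc ρ 0)) + (2 ^ (2 * m + 1) - 1) * d := by
    rw [finrank_eq_sum hc ρ, ← Finset.add_sum_erase _ _ (Finset.mem_univ (0 : F))]
    congr 1
    rw [Finset.sum_congr rfl (fun l hl => finrank_ee_eq hc ρ (Finset.ne_of_mem_erase hl))]
    simp only [Finset.sum_const, smul_eq_mul]
    rw [Finset.card_erase_of_mem (Finset.mem_univ _), Finset.card_univ, hF]
  -- `d` is not zero
  have hd0 : 0 < d := by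
    rw [Nat.pos_iff_ne_zero]
    intro h0
    have hzero : ∀ l : F, l ≠ 0 → ee hc ρ l = 0 := by
      intro l hl
      have h1 := finrank_ee_eq hc ρ hl
      rw [← hd, h0, Submodule.finrank_eq_zero, LinearMap.range_eq_bot] at h1
      exact h1
    have he0 : ee hc ρ 0 = 1 := by
      have := sum_ee hc ρ
      rw [Finset.sum_eq_single (0 : F)] at this
      · exact this
      · intro l _ hl
        exact hzero l hl
      · simp
    have hker : uS hc 0 (1 : F) ∈ ρ.ker := by
      rw [MonoidHom.mem_ker]
      have := z_mul_ee hc ρ (1 : F) 0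
      rw [he0, mul_one, zero_mul, eps_zero, one_smul] at this
      exact this
    obtain ⟨g, hg⟩ := hρ
    rcases (IsSimpleGroup.eq_bot_or_eq_top_of_normal ρ.ker ρ.normal_ker) with h1 | h1
    · rw [h1, Subgroup.mem_bot] at hker
      have := (uS_injective hc (a := 0) (b := 1) (a' := 0) (b' := 0) (hker.trans (uS_zero hc).symm)).2
      exact one_ne_zero this
    · apply hg
      have : g ∈ ρ.ker := by rw [h1]; trivial
      exact this
  -- the Heisenberg bound on the eigenspace
  set W := LinearMap.range (ee hc ρ 1) with hW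
  have hcomm : ∀ (a b c : F), Commute (ρ (uS hc a b)) (ρ (uS hc 0 c)) := by
    intro a b c
    show _ * _ = _ * _
    rw [← map_mul, ← map_mul]
    congr 1
    rw [uS_mul, uS_mul]
    simp [th_zero, add_comm, add_left_comm]
  have hcommE : ∀ (a b : F), Commute (ρ (uS hc a b)) (ee hc ρ 1) := by
    intro a b
    unfold ee
    apply Commute.smul_right
    apply Commute.sum_right
    intro c _
    exact (hcomm a b c).smul_right _
  have hinv : ∀ (a b : F) (v : V), v ∈ W → ρ (uS hc a b) v ∈ W := by
    rintro a b _ ⟨v, rfl⟩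
    refine ⟨ρ (uS hc a b) v, ?_⟩
    have := (hcommE a b).eq
    exact (LinearMap.congr_fun this v).symm
  let P : F → F → Module.End ℂ W := fun a b => (ρ (uS hc a b)).restrict (hinv a b)
  haveI : Nontrivial W := by
    apply Module.nontrivial_of_finrank_pos (R := ℂ)
    exact hd0
  have hmul : ∀ a b a' b', P a b * P a' b' = P (a + a') (b + b' + th m a * a') := by
    intro a b a' b'
    ext x
    simp only [P, Module.End.mul_apply, LinearMap.restrict_coe_apply]
    rw [← Module.End.mul_apply, ← map_mul, uS_mul]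
  have hz : ∀ c, P 0 c = eps m c • 1 := by
    intro c
    ext ⟨x, hx⟩
    simp only [P, LinearMap.restrict_coe_apply, LinearMap.smul_apply, Module.End.one_apply,
      Submodule.coe_smul]
    have h1 : ee hc ρ 1 x = x := by
      obtain ⟨v, rfl⟩ := hx
      have := LinearMap.congr_fun (ee_idem hc ρ 1) v
      exact this
    have h2 := LinearMap.congr_fun (z_mul_ee hc ρ c 1) x
    simp only [Module.End.mul_apply, h1, LinearMap.smul_apply, one_mul] at h2
    exact h2
  have hH := heis hc P hmul hz
  rw [← hd] at hH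
  have hd1 : 2 ^ m ≤ d := by
    by_contra hlt
    push Not at hlt
    have h5 : d * d < 2 ^ m * 2 ^ m := Nat.mul_self_lt_mul_self hlt
    have h6 : (2 : ℕ) ^ m * 2 ^ m = 2 ^ (2 * m) := by ring
    omega
  rw [hsum, mul_comm]
  exact le_add_left (Nat.mul_le_mul_left _ hd1)

end Main

end Cfsg.Agent.Lib.SzDeg.Basic
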